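import Cfsg.Agent.H123.NCBase
import Cfsg.Agent.H104.IrrSL
import Cfsg.Agent.H104.IrrSU
import Cfsg.Agent.H104.IrrSp
import Cfsg.Agent.H104.IrrPOmega
import Cfsg.Agent.S0244
import Cfsg.Agent.LieClassical.FieldTransfer
import Cfsg.Prelude.Def_LieTypeChar

/-!
# Classical rows of S2348
-/

set_option autoImplicit false
set_option linter.unusedSectionVars false

universe u v

namespace Cfsg.Agent.H123.ClassRows

open Cfsg.Agent.H123.SpNC Cfsg.Agent.H795

variable (F : Type) [Field F]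

/-- `Sp_2 = SL_2` -/
def spTwo : Matrix.symplecticGroup (Fin 1) F ≃* Matrix.SpecialLinearGroup (Fin 2) F where
  toFun A := ⟨Matrix.reindex finSumFinEquiv finSumFinEquiv (A : Matrix (Fin 1 ⊕ Fin 1) (Fin 1 ⊕ Fin 1) F), by
    rw [Matrix.det_reindex_self]
    exact (S0244.result _).1 A.2⟩
  invFun A := ⟨Matrix.reindex finSumFinEquiv.symm finSumFinEquiv.symm (A : Matrix (Fin 2) (Fin 2) F), by
    rw [S0244.result, Matrix.det_reindex_self]
    exact A.2⟩
  left_inv A := by
    apply Subtype.ext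
    ext i j
    simp
  right_inv A := by
    apply Subtype.ext
    ext i j
    simp
  map_mul' A B := by
    apply Subtype.ext
    change Matrix.reindex finSumFinEquiv finSumFinEquiv (A.1 * B.1) =
      Matrix.reindex finSumFinEquiv finSumFinEquiv A.1 * Matrix.reindex finSumFinEquiv finSumFinEquiv B.1
    rw [Matrix.reindex_apply, Matrix.reindex_apply, Matrix.reindex_apply, Matrix.submatrix_mul_equiv]

/-- `PSp_2 = PSL_2` -/
def pspOne : PSp 1 F ≃* Matrix.ProjectiveSpecialLinearGroup (Fin 2) F :=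
  LieClassical.FieldTransfer.centralQuotientCongr (spTwo F)

end Cfsg.Agent.H123.ClassRows

namespace Cfsg.Agent.H123.ClassRows

open Cfsg.Agent.H123.SpNC Cfsg.Agent.H795

variable {p : ℕ} [hp : Fact p.Prime] {G : Type*} [Group G] [Finite G]

theorem charP_or (F : Type) [Field F] [Fintype F] (p : ℕ) [hp : Fact p.Prime] : CharP F p ∨ (p : F) ≠ 0 := by
  by_cases h : (p : F) = 0
  · left
    obtain ⟨r, hr⟩ := CharP.exists F
    have h1 : r ∣ p := (CharP.cast_eq_zero_iff F r p).1 h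
    have h2 : r ≠ 1 := CharP.char_ne_one F r
    rcases (Nat.dvd_prime hp.out).1 h1 with h3 | h3
    · exact absurd h3 h2
    · rwa [h3] at hr
  · exact Or.inr h

theorem of_normOm {H : Type*} [Group H] [Finite H] (h : NormOm p H) : CycTI p H := CycTI.of_fix h

/-- `PSL`, assuming the split case of degree at least three -/
theorem row_psl (hp2 : p ≠ 2) (hs : ∀ {F : Type} [Field F] [Fintype F] {n : ℕ}, 3 ≤ n → p ∣ Fintype.card F - 1 →
      NC p (Matrix.ProjectiveSpecialLinearGroup (Fin n) F)) (h : IsPSL G) : IsLieTypeChar p G ∨ CycTI p G := by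
  obtain ⟨F, _, _, n, hn, hn2, ⟨e⟩⟩ := h
  rcases charP_or F p with h1 | h1
  · exact Or.inl (Or.inl ⟨F, inferInstance, inferInstance, h1, n, hn, hn2, ⟨e⟩⟩)
  · right
    refine CycTI.congr ?_ e.symm
    rcases Nat.lt_or_ge n 3 with h3 | h3
    · have h4 : n = 2 := by omega
      subst h4
      have h5 := of_normOm (Cfsg.Agent.H104.IrrSp.psp_main (F := F) hp2 h1 (m := 1) le_rfl).2
      exact h5.congr (pspOne F)
    · by_cases h4 : p ∣ Fintype.card F - 1
      · exact (hs h3 h4).cycTI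
      · exact of_normOm (Cfsg.Agent.H104.IrrSL.psl_main (F := F) h1 h4 (by omega)).2

theorem row_psp (hp2 : p ≠ 2) (h : IsPSp G) : IsLieTypeChar p G ∨ CycTI p G := by
  obtain ⟨F, _, _, m, hm, hm2, ⟨e⟩⟩ := h
  rcases charP_or F p with h1 | h1
  · exact Or.inl (Or.inr (Or.inl ⟨F, inferInstance, inferInstance, h1, m, hm, hm2, ⟨e⟩⟩))
  · right
    refine CycTI.congr ?_ e.symm
    exact of_normOm (Cfsg.Agent.H104.IrrSp.psp_main (F := F) hp2 h1 (by omega)).2

theorem row_psu (hp2 : p ≠ 2) (hs : ∀ {F : Type} [Field F] [Fintype F] {n q : ℕ}, Fintype.card F = q ^ 2 → 3 ≤ n →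
      p ∣ q + 1 → NC p (Cfsg.PSU n F q)) (h : IsPSU G) : IsLieTypeChar p G ∨ CycTI p G := by
  obtain ⟨F, _, _, n, q, hF, hn, hn2, ⟨e⟩⟩ := h
  rcases charP_or F p with h1 | h1
  · exact Or.inl (Or.inr (Or.inr (Or.inl ⟨F, inferInstance, inferInstance, h1, n, q, hF, hn, hn2, ⟨e⟩⟩)))
  · right
    refine CycTI.congr ?_ e.symm
    by_cases h4 : p ∣ q + 1
    · exact (hs hF hn h4).cycTI
    · exact of_normOm (Cfsg.Agent.H104.IrrSU.psu_main (K := F) hF h1 h4 hn).2

theorem row_odd (hp2 : p ≠ 2) (h : IsPOmegaOdd G) : IsLieTypeChar p G ∨ CycTI p G := by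
  obtain ⟨F, _, _, m, hm, hF, ⟨e⟩⟩ := h
  rcases charP_or F p with h1 | h1
  · exact Or.inl (Or.inr (Or.inr (Or.inr (Or.inl ⟨F, inferInstance, inferInstance, h1, m, hm, hF, ⟨e⟩⟩))))
  · right
    refine CycTI.congr ?_ e.symm
    refine of_normOm (Cfsg.Agent.H104.IrrPOmega.odd_main (F := F) hm ?_ hp2 h1).2
    intro h2
    have h3 : ringChar F = 2 := by
      have h4 : ringChar F ∣ 2 := (CharP.cast_eq_zero_iff F (ringChar F) 2).1 (by exact_mod_cast h2)
      rcases (Nat.dvd_prime Nat.prime_two).1 h4 with h5 | h5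
      · exact absurd h5 (CharP.char_ne_one F _)
      · exact h5
    have h4 := FiniteField.even_card_of_char_two h3
    rw [Nat.odd_iff] at hF
    omega

theorem row_plus (hp2 : p ≠ 2) (h : IsPOmegaPlus G) : IsLieTypeChar p G ∨ CycTI p G := by
  obtain ⟨F, _, _, m, hm, ⟨e⟩⟩ := h
  rcases charP_or F p with h1 | h1
  · exact Or.inl (Or.inr (Or.inr (Or.inr (Or.inr (Or.inl ⟨F, inferInstance, inferInstance, h1, m, hm, ⟨e⟩⟩)))))
  · right
    refine CycTI.congr ?_ e.symm
    exact of_normOm (Cfsg.Agent.H104.IrrPOmega.plus_main (F := F) hm hp2 h1).2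

theorem row_minus (hp2 : p ≠ 2) (h : IsPOmegaMinus G) : IsLieTypeChar p G ∨ CycTI p G := by
  obtain ⟨F, _, _, m, a, b, hm, hab, ⟨e⟩⟩ := h
  rcases charP_or F p with h1 | h1
  · exact Or.inl (Or.inr (Or.inr (Or.inr (Or.inr (Or.inr (Or.inl
      ⟨F, inferInstance, inferInstance, h1, m, a, b, hm, hab, ⟨e⟩⟩))))))
  · right
    refine CycTI.congr ?_ e.symm
    exact of_normOm (Cfsg.Agent.H104.IrrPOmega.minus_main (F := F) hm a b hab hp2 h1).2

end Cfsg.Agent.H123.ClassRows
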